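import Mathlib
import Cfsg.Agent.Lib.Helper6.A7.Defs
import Cfsg.Agent.Lib.Helper17.Small

/-!
# S0984 package (O) (helper15): an overgroup `K ≠ ⊤` of `N(P₃)` (order 36) and of a Sylow
2-subgroup has index 7.
-/

set_option autoImplicit false

universe u

namespace Cfsg.Agent.Lib.Helper15.A7

open Cfsg.Agent.Lib.Helper6.A7 Cfsg.Agent.Lib

/-- **(O)** -/
theorem lemOver : LemOver.{u} := by
  intro G _ _ _ hG P hN S K hNK hSK hK
  have h3 : Fact (Nat.Prime 3) := ⟨by norm_num⟩
  have h2 : Fact (Nat.Prime 2) := ⟨Nat.prime_two⟩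
  have hS : Nat.card (S : Subgroup G) = 8 := by
    have := Helper17.card_sylow_eq_of_card_eq (G := G) 2 3 315 (by rw [hG]; norm_num) (by norm_num) S
    simpa using this
  have h36 : 36 ∣ Nat.card K := by rw [← hN]; exact Subgroup.card_dvd_of_le hNK
  have h8 : 8 ∣ Nat.card K := by rw [← hS]; exact Subgroup.card_dvd_of_le hSK
  have h72 : 72 ∣ Nat.card K := by
    have := Nat.lcm_dvd h36 h8
    have e : Nat.lcm 36 8 = 72 := by decide
    rwa [e] at this
  have hKG : Nat.card K * K.index = 2520 := by rw [Subgroup.card_mul_index, hG]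
  have hidx : K.index ≠ 1 := fun h => hK (Subgroup.index_eq_one.mp h)
  obtain ⟨c, hc⟩ := h72
  have h35 : c * K.index = 35 := by
    have : 72 * (c * K.index) = 72 * 35 := by rw [← mul_assoc, ← hc]; exact hKG
    exact Nat.eq_of_mul_eq_mul_left (by norm_num) this
  have hdvd : K.index ∣ 35 := Dvd.intro_left c h35
  have hcases : K.index = 5 ∨ K.index = 7 ∨ K.index = 35 := by
    have h0 : K.index ≤ 35 := Nat.le_of_dvd (by norm_num) hdvd
    have hall : ∀ i ≤ 35, i ∣ 35 → i ≠ 1 → i = 5 ∨ i = 7 ∨ i = 35 := by decide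
    exact hall _ h0 hdvd hidx
  rcases hcases with h5 | h7 | h35'
  · exfalso
    have := Helper17.card_dvd_factorial_index K hK
    rw [hG, h5] at this
    revert this; decide
  · exact h7
  · exfalso
    have hKc : Nat.card K = 72 := by rw [h35'] at hKG; omega
    set N := Subgroup.normalizer ((P : Subgroup G) : Set G) with hNdef
    have hrel : N.relIndex K = 2 := by
      have h1 := Subgroup.relIndex_mul_index hNK
      have h2 : N.index * Nat.card N = 2520 := by rw [Subgroup.index_mul_card, hG]
      rw [hN] at h2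
      have h3 : N.index = 70 := by omega
      rw [h3, h35'] at h1
      omega
    have hnorm : (N.subgroupOf K).Normal := Subgroup.normal_of_index_eq_two hrel
    have key : ∀ k ∈ K, ∀ y ∈ (P : Subgroup G), k * y * k⁻¹ ∈ (P : Subgroup G) := by
      intro k hk y hy
      have hyN : y ∈ N := Subgroup.le_normalizer hy
      have h1 : k * y * k⁻¹ ∈ N := by
        have := hnorm.conj_mem ⟨y, hNK hyN⟩ (Subgroup.mem_subgroupOf.mpr hyN) ⟨k, hk⟩
        exact Subgroup.mem_subgroupOf.mp this
      obtain ⟨j, hj⟩ := (IsPGroup.iff_orderOf.mp P.isPGroup') ⟨y, hy⟩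
      have hoy : orderOf y = 3 ^ j := by rw [← hj, Subgroup.orderOf_mk]
      have ho : orderOf (k * y * k⁻¹) = 3 ^ j := by
        rw [← hoy]; exact MulEquiv.orderOf_eq (MulAut.conj k) y
      exact Helper17.mem_sylow_of_mem_normalizer_of_orderOf 3 P _ h1 j ho
    have hKN : K ≤ N := by
      intro k hk
      rw [Subgroup.mem_normalizer_iff]
      intro y
      constructor
      · exact key k hk y
      · intro h
        have := key k⁻¹ (K.inv_mem hk) _ h
        simpa [mul_assoc] using this
    have := Subgroup.card_le_of_le hKN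
    rw [hN, hKc] at this
    omega

end Cfsg.Agent.Lib.Helper15.A7

example : Cfsg.Agent.Lib.Helper6.A7.LemOver.{u} := Cfsg.Agent.Lib.Helper15.A7.lemOver
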