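import Mathlib
import Cfsg.Agent.Lib.Helper6.A7.Defs
import Cfsg.Agent.Lib.Helper17.Small

/-!
# S0984 package (C) (helper15): the normalizer of a Sylow 3-subgroup of a simple group of
order 2520 has index 7 or order 36.
-/

set_option autoImplicit false

universe u

namespace Cfsg.Agent.Lib.Helper15.A7

open Cfsg.Agent.Lib.Helper6.A7 Cfsg.Agent.Lib

/-- the fixed-point congruence for conjugation by an element of `p`-power order on a
normalized subgroup. -/
theorem card_modEq_card_inf_centralizer {G : Type u} [Group G] (p : ℕ) [Fact p.Prime]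
    (T : Subgroup G) [Finite T] (x : G) (hx : x ∈ Subgroup.normalizer (T : Set G)) (n : ℕ)
    (hxp : x ^ p ^ n = 1) :
    Nat.card T ≡ Nat.card (T ⊓ Subgroup.centralizer ({x} : Set G) : Subgroup G) [MOD p] := by
  classical
  have : Fintype T := Fintype.ofFinite T
  have hmem : ∀ (k : ℕ) (t : G), t ∈ T → x ^ k * t * (x ^ k)⁻¹ ∈ T := by
    intro k t ht
    have := Subgroup.pow_mem _ hx k
    exact (Subgroup.mem_normalizer_iff.mp this t).mp ht
  let f : Function.End T := fun t => ⟨x * t.1 * x⁻¹, by simpa using hmem 1 t.1 t.2⟩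
  have hf : ∀ (k : ℕ) (t : T), ((f ^ k) t : G) = x ^ k * t.1 * (x ^ k)⁻¹ := by
    intro k
    induction k with
    | zero =>
      intro t
      rw [pow_zero, pow_zero, one_mul, inv_one, mul_one]
      rfl
    | succ k ih =>
      intro t
      rw [pow_succ']
      change ((f ((f ^ k) t) : T) : G) = _
      change x * ((f ^ k) t : G) * x⁻¹ = _
      rw [ih t, pow_succ']
      group
  have hf1 : f ^ p ^ n = 1 := by
    funext t
    apply Subtype.ext
    rw [hf, hxp, one_mul, inv_one, mul_one]
    rfl
  have hmod := Equiv.Perm.card_fixedPoints_modEq (p := p) (n := n) hf1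
  have hfix : Nat.card (Function.fixedPoints f)
      = Nat.card (T ⊓ Subgroup.centralizer ({x} : Set G) : Subgroup G) := by
    let φ : Function.fixedPoints f → (T ⊓ Subgroup.centralizer ({x} : Set G) : Subgroup G) :=
      fun t => ⟨t.1.1, t.1.2, by
        show t.1.1 ∈ Subgroup.centralizer ({x} : Set G)
        rw [Subgroup.mem_centralizer_iff]
        intro h hh
        rw [Set.mem_singleton_iff] at hh
        rw [hh]
        have h1 : x * t.1.1 * x⁻¹ = t.1.1 := congrArg Subtype.val t.2
        calc x * t.1.1 = (x * t.1.1 * x⁻¹) * x := by group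
          _ = t.1.1 * x := by rw [h1]⟩
    apply Nat.card_congr
    refine Equiv.ofBijective φ ⟨?_, ?_⟩
    · intro a b hab
      have h' : (φ a : G) = (φ b : G) := congrArg Subtype.val hab
      exact Subtype.ext (Subtype.ext h')
    · intro y
      have hy := y.2
      refine ⟨⟨⟨y.1, hy.1⟩, ?_⟩, rfl⟩
      rw [Function.mem_fixedPoints]
      apply Subtype.ext
      have h1 := Subgroup.mem_centralizer_iff.mp hy.2 x (Set.mem_singleton x)
      change x * y.1 * x⁻¹ = y.1
      rw [h1]; group
  rw [Nat.card_eq_fintype_card, ← hfix, Nat.card_eq_fintype_card]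
  exact hmod

/-- an element of order dividing `q ∈ {5, 7}` normalizing a subgroup of order 9 centralizes
it. -/
theorem centralizes_of_order_nine {G : Type u} [Group G] [Finite G] (q : ℕ) [Fact q.Prime]
    (hq : q = 5 ∨ q = 7) (T : Subgroup G) (hT : Nat.card T = 9) (x : G)
    (hx : x ∈ Subgroup.normalizer (T : Set G)) (hxq : x ^ q = 1) :
    T ≤ Subgroup.centralizer ({x} : Set G) := by
  have hmod := card_modEq_card_inf_centralizer q T x hx 1 (by simpa using hxq)
  have hCT : T ⊓ Subgroup.centralizer ({x} : Set G) ≤ T := inf_le_left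
  have hdvd : Nat.card (T ⊓ Subgroup.centralizer ({x} : Set G) : Subgroup G) ∣ 9 := by
    rw [← hT]; exact Subgroup.card_dvd_of_le hCT
  have hC9 : Nat.card (T ⊓ Subgroup.centralizer ({x} : Set G) : Subgroup G) = 9 := by
    rw [hT] at hmod
    have h0 := Nat.le_of_dvd (by norm_num) hdvd
    have hall : ∀ c ≤ 9, c ∣ 9 → (9 ≡ c [MOD 5] ∨ 9 ≡ c [MOD 7]) → c = 9 := by decide
    apply hall _ h0 hdvd
    rcases hq with rfl | rfl
    · exact Or.inl hmod
    · exact Or.inr hmod
  have : T ⊓ Subgroup.centralizer ({x} : Set G) = T :=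
    Subgroup.eq_of_le_of_card_ge hCT (by rw [hC9, hT])
  rw [← this]; exact inf_le_right

/-- if the Sylow `q`-subgroups (`q ∈ {5, 7}`) have order `q` and are self-centralizing, then
`q` does not divide the order of the normalizer of a subgroup of order 9. -/
theorem no_q_normalizer {G : Type u} [Group G] [Finite G] (q : ℕ) [Fact q.Prime]
    (hq : q = 5 ∨ q = 7)
    (hc : ∀ Q : Sylow q G, Subgroup.centralizer ((Q : Subgroup G) : Set G) = (Q : Subgroup G))
    (hQ : ∀ Q : Sylow q G, Nat.card (Q : Subgroup G) = q)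
    (T : Subgroup G) (hT : Nat.card T = 9)
    (hdvd : q ∣ Nat.card (Subgroup.normalizer (T : Set G))) : False := by
  obtain ⟨g, hg⟩ := exists_prime_orderOf_dvd_card' (G := Subgroup.normalizer (T : Set G)) q hdvd
  have hgo : orderOf (g : G) = q := by rw [Subgroup.orderOf_coe]; exact hg
  have hgq : (g : G) ^ q = 1 := by rw [← hgo]; exact pow_orderOf_eq_one _
  have hcen := centralizes_of_order_nine q hq T hT (g : G) g.2 hgq
  have hzp : IsPGroup q (Subgroup.zpowers (g : G)) := by
    apply IsPGroup.of_card (n := 1)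
    rw [Nat.card_zpowers, hgo, pow_one]
  obtain ⟨Q, hQle⟩ := hzp.exists_le_sylow
  have hgQ : (g : G) ∈ (Q : Subgroup G) := hQle (Subgroup.mem_zpowers _)
  have hg1 : (g : G) ≠ 1 := by
    intro h
    rw [h, orderOf_one] at hgo
    exact (Fact.out : q.Prime).one_lt.ne hgo
  have hzQ : Subgroup.zpowers (g : G) = (Q : Subgroup G) :=
    Helper17.zpowers_eq_of_mem_of_card_prime (Fact.out : q.Prime) _ (hQ Q) _ hgQ hg1
  have hTQ : T ≤ (Q : Subgroup G) := by
    rw [← hc Q]
    intro t ht
    rw [Subgroup.mem_centralizer_iff]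
    intro y hy
    rw [SetLike.mem_coe, ← hzQ] at hy
    obtain ⟨k, rfl⟩ := Subgroup.mem_zpowers_iff.mp hy
    have h1 : (g : G) * t = t * (g : G) :=
      Subgroup.mem_centralizer_iff.mp (hcen ht) _ (Set.mem_singleton _)
    exact (Commute.zpow_left h1 k).eq
  have := Subgroup.card_le_of_le hTQ
  rw [hT, hQ Q] at this
  rcases hq with rfl | rfl <;> omega

/-- **(C)** -/
theorem lemSylow3 : LemSylow3.{u} := by
  intro G _ _ _ hD P
  have hG := hD.card
  have h3 : Fact (Nat.Prime 3) := ⟨by norm_num⟩
  have h5 : Fact (Nat.Prime 5) := ⟨by norm_num⟩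
  have h7 : Fact (Nat.Prime 7) := ⟨by norm_num⟩
  have hnp : ¬ (Nat.card G).Prime := by rw [hG]; norm_num
  set N := Subgroup.normalizer ((P : Subgroup G) : Set G) with hNdef
  have hP : Nat.card (P : Subgroup G) = 9 := by
    have := Helper17.card_sylow_eq_of_card_eq (G := G) 3 2 280 (by rw [hG]; norm_num)
      (by norm_num) P
    simpa using this
  have hQ5 : ∀ Q : Sylow 5 G, Nat.card (Q : Subgroup G) = 5 := by
    intro Q
    have := Helper17.card_sylow_eq_of_card_eq (G := G) 5 1 504 (by rw [hG]; norm_num)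
      (by norm_num) Q
    simpa using this
  have hQ7 : ∀ Q : Sylow 7 G, Nat.card (Q : Subgroup G) = 7 := by
    intro Q
    have := Helper17.card_sylow_eq_of_card_eq (G := G) 7 1 360 (by rw [hG]; norm_num)
      (by norm_num) Q
    simpa using this
  have hmul : Nat.card (Sylow 3 G) * Nat.card N = 2520 := by
    rw [← hG]; exact Helper17.card_sylow_mul_card_normalizer 3 P
  have hidx : N.index * Nat.card N = 2520 := by rw [Subgroup.index_mul_card, hG]
  have hmem := Helper17.card_sylow_mem_cands (G := G) 3 2 280 (by rw [hG]; norm_num)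
    (by norm_num)
  have hlist : Helper17.sylowCands 3 280 = [1, 4, 7, 10, 28, 40, 70, 280] := by decide
  rw [hlist] at hmem
  simp only [List.mem_cons, List.mem_nil_iff, or_false] at hmem
  have hno5 : ¬ 5 ∣ Nat.card N := fun h =>
    no_q_normalizer 5 (Or.inl rfl) hD.c5 hQ5 (P : Subgroup G) hP h
  have hno7 : ¬ 7 ∣ Nat.card N := fun h =>
    no_q_normalizer 7 (Or.inr rfl) hD.c7 hQ7 (P : Subgroup G) hP h
  rcases hmem with h | h | h | h | h | h | h | h
  · exact absurd h (Helper17.card_sylow_ne_one 3 (by rw [hG]; norm_num) 2 Nat.prime_two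
      (by norm_num) (by rw [hG]; norm_num))
  · exfalso
    have := Helper17.card_dvd_factorial_card_sylow (G := G) 3 (by rw [h]; norm_num)
    rw [hG, h] at this
    revert this; decide
  · left
    rw [h] at hmul
    have : Nat.card N = 360 := by omega
    rw [this] at hidx
    omega
  · exfalso
    rw [h] at hmul
    have : Nat.card N = 252 := by omega
    exact hno7 (by rw [this]; norm_num)
  · exfalso
    rw [h] at hmul
    have : Nat.card N = 90 := by omega
    exact hno5 (by rw [this]; norm_num)
  · exfalso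
    rw [h] at hmul
    have : Nat.card N = 63 := by omega
    exact hno7 (by rw [this]; norm_num)
  · right
    rw [h] at hmul
    omega
  · exfalso
    rw [h] at hmul
    have hN9 : Nat.card N = 9 := by omega
    have hPN : (P : Subgroup G) = N :=
      Subgroup.eq_of_le_of_card_ge Subgroup.le_normalizer (by rw [hN9, hP])
    apply Helper17.not_normalizer_le_centralizer hnp 3 (by rw [hG]; norm_num) P
    rw [← hNdef, ← hPN]
    have hcomm := (IsPGroup.isMulCommutative_of_card_eq_prime_sq (G := (P : Subgroup G)) (p := 3)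
      (by rw [hP]; norm_num)).is_comm.comm
    intro y hy
    rw [Subgroup.mem_centralizer_iff]
    intro z hz
    exact congrArg Subtype.val (hcomm ⟨z, hz⟩ ⟨y, hy⟩)

end Cfsg.Agent.Lib.Helper15.A7

example : Cfsg.Agent.Lib.Helper6.A7.LemSylow3.{u} := Cfsg.Agent.Lib.Helper15.A7.lemSylow3
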